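import Mathlib.Combinatorics.SimpleGraph.Clique
import Mathlib.Data.Set.Card
import Mathlib.Tactic

/-!
# A graph on five vertices without triangles and without independent triples (helper677)

Its complement contains a pentagon.
-/

set_option autoImplicit false

namespace Cfsg.Agent.H677.Pent

/-- one triangle, or one independent triple, or a pentagon -/
def tst (ab ac ad ae bc bd be cd ce de : Bool) : Bool :=
  ((ab && ac && bc) || (ab && ad && bd) || (ab && ae && be) || (ac && ad && cd) || (ac && ae && ce) || (ad && ae && de) || (bc && bd && cd) || (bc && be && ce) || (bd && be && de) || (cd && ce && de)) ||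
  (!(ab || ac || bc) || !(ab || ad || bd) || !(ab || ae || be) || !(ac || ad || cd) || !(ac || ae || ce) || !(ad || ae || de) || !(bc || bd || cd) || !(bc || be || ce) || !(bd || be || de) || !(cd || ce || de)) ||
  ((!ab && !bc && !cd && !de && !ae) || (!ab && !bc && !ce && !de && !ad) || (!ab && !bd && !cd && !ce && !ae) || (!ab && !bd && !de && !ce && !ac) || (!ab && !be && !ce && !cd && !ad) || (!ab && !be && !de && !cd && !ac) || (!ac && !bc && !bd && !de && !ae) || (!ac && !bc && !be && !de && !ad) || (!ac && !cd && !bd && !be && !ae) || (!ac && !ce && !be && !bd && !ad) || (!ad && !bd && !bc && !ce && !ae) || (!ad && !cd && !bc && !be && !ae))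

theorem tst_true : ∀ ab ac ad ae bc bd be cd ce de : Bool, tst ab ac ad ae bc bd be cd ce de = true := by
  decide +kernel

theorem bool_lemma (ab ac ad ae bc bd be cd ce de : Bool)
    (h1 : (ab && ac && bc) = false)
    (h2 : (ab && ad && bd) = false)
    (h3 : (ab && ae && be) = false)
    (h4 : (ac && ad && cd) = false)
    (h5 : (ac && ae && ce) = false)
    (h6 : (ad && ae && de) = false)
    (h7 : (bc && bd && cd) = false)
    (h8 : (bc && be && ce) = false)
    (h9 : (bd && be && de) = false)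
    (h10 : (cd && ce && de) = false)
    (h11 : (ab || ac || bc) = true)
    (h12 : (ab || ad || bd) = true)
    (h13 : (ab || ae || be) = true)
    (h14 : (ac || ad || cd) = true)
    (h15 : (ac || ae || ce) = true)
    (h16 : (ad || ae || de) = true)
    (h17 : (bc || bd || cd) = true)
    (h18 : (bc || be || ce) = true)
    (h19 : (bd || be || de) = true)
    (h20 : (cd || ce || de) = true)
    : ((!ab && !bc && !cd && !de && !ae) || (!ab && !bc && !ce && !de && !ad) || (!ab && !bd && !cd && !ce && !ae) || (!ab && !bd && !de && !ce && !ac) || (!ab && !be && !ce && !cd && !ad) || (!ab && !be && !de && !cd && !ac) || (!ac && !bc && !bd && !de && !ae) || (!ac && !bc && !be && !de && !ad) || (!ac && !cd && !bd && !be && !ae) || (!ac && !ce && !be && !bd && !ad) || (!ad && !bd && !bc && !ce && !ae) || (!ad && !cd && !bc && !be && !ae)) = true := by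
  have h := tst_true ab ac ad ae bc bd be cd ce de
  unfold tst at h
  rw [h1, h2, h3, h4, h5, h6, h7, h8, h9, h10, h11, h12, h13, h14, h15, h16, h17, h18, h19, h20] at h
  simpa only [Bool.or_false, Bool.false_or, Bool.not_true] using h

/-- A pentagon in the complement. -/
theorem exists_pentagon (Γ : SimpleGraph ℕ) (V : Set ℕ) (h5 : V.ncard = 5) (htri : Γ.CliqueFree 3)
    (hind : ∀ p ∈ V, ∀ q ∈ V, ∀ r ∈ V, p ≠ q → q ≠ r → p ≠ r → Γ.Adj p q ∨ Γ.Adj q r ∨ Γ.Adj p r) :
    ∃ v : Fin 5 → ℕ, Function.Injective v ∧ (∀ i, v i ∈ V) ∧ ∀ i, ¬ Γ.Adj (v i) (v (i + 1)) := by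
  classical
  have hfin : V.Finite := Set.finite_of_ncard_ne_zero (by omega)
  obtain ⟨T, rfl⟩ := hfin.exists_finset_coe
  rw [Set.ncard_coe_finset] at h5
  obtain ⟨f⟩ : Nonempty (Fin 5 ≃ T) := ⟨(Finset.equivFinOfCardEq h5).symm⟩
  let g : Fin 5 → ℕ := fun i => f i
  have hg : Function.Injective g := fun i j h => f.injective (Subtype.ext h)
  have hgT : ∀ i, g i ∈ (T : Set ℕ) := fun i => (f i).2
  have key : ∀ σ : Fin 5 → Fin 5, Function.Injective σ → (∀ i, ¬ Γ.Adj (g (σ i)) (g (σ (i + 1)))) →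
      ∃ v : Fin 5 → ℕ, Function.Injective v ∧ (∀ i, v i ∈ (T : Set ℕ)) ∧ ∀ i, ¬ Γ.Adj (v i) (v (i + 1)) :=
    fun σ hσ h => ⟨g ∘ σ, hg.comp hσ, fun i => hgT _, h⟩
  have t1 : ∀ i j k : Fin 5, i ≠ j → i ≠ k → j ≠ k →
      (decide (Γ.Adj (g i) (g j)) && decide (Γ.Adj (g i) (g k)) && decide (Γ.Adj (g j) (g k))) = false := by
    intro i j k _ _ _
    by_contra hcon
    rw [Bool.not_eq_false, Bool.and_eq_true, Bool.and_eq_true, decide_eq_true_iff, decide_eq_true_iff,
      decide_eq_true_iff] at hcon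
    exact htri {g i, g j, g k} (SimpleGraph.is3Clique_triple_iff.2 ⟨hcon.1.1, hcon.1.2, hcon.2⟩)
  have t2 : ∀ i j k : Fin 5, i ≠ j → i ≠ k → j ≠ k →
      (decide (Γ.Adj (g i) (g j)) || decide (Γ.Adj (g i) (g k)) || decide (Γ.Adj (g j) (g k))) = true := by
    intro i j k hij hik hjk
    rw [Bool.or_eq_true, Bool.or_eq_true, decide_eq_true_iff, decide_eq_true_iff, decide_eq_true_iff]
    rcases hind (g i) (hgT i) (g j) (hgT j) (g k) (hgT k) (hg.ne hij) (hg.ne hjk) (hg.ne hik) with h | h | h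
    · exact Or.inl (Or.inl h)
    · exact Or.inr h
    · exact Or.inl (Or.inr h)
  have h := bool_lemma (decide (Γ.Adj (g 0) (g 1))) (decide (Γ.Adj (g 0) (g 2))) (decide (Γ.Adj (g 0) (g 3))) (decide (Γ.Adj (g 0) (g 4))) (decide (Γ.Adj (g 1) (g 2))) (decide (Γ.Adj (g 1) (g 3))) (decide (Γ.Adj (g 1) (g 4))) (decide (Γ.Adj (g 2) (g 3))) (decide (Γ.Adj (g 2) (g 4))) (decide (Γ.Adj (g 3) (g 4)))
    (t1 0 1 2 (by decide) (by decide) (by decide)) (t1 0 1 3 (by decide) (by decide) (by decide)) (t1 0 1 4 (by decide) (by decide) (by decide)) (t1 0 2 3 (by decide) (by decide) (by decide)) (t1 0 2 4 (by decide) (by decide) (by decide)) (t1 0 3 4 (by decide) (by decide) (by decide)) (t1 1 2 3 (by decide) (by decide) (by decide)) (t1 1 2 4 (by decide) (by decide) (by decide)) (t1 1 3 4 (by decide) (by decide) (by decide)) (t1 2 3 4 (by decide) (by decide) (by decide))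
    (t2 0 1 2 (by decide) (by decide) (by decide)) (t2 0 1 3 (by decide) (by decide) (by decide)) (t2 0 1 4 (by decide) (by decide) (by decide)) (t2 0 2 3 (by decide) (by decide) (by decide)) (t2 0 2 4 (by decide) (by decide) (by decide)) (t2 0 3 4 (by decide) (by decide) (by decide)) (t2 1 2 3 (by decide) (by decide) (by decide)) (t2 1 2 4 (by decide) (by decide) (by decide)) (t2 1 3 4 (by decide) (by decide) (by decide)) (t2 2 3 4 (by decide) (by decide) (by decide))
  simp only [Bool.or_eq_true, Bool.and_eq_true, Bool.not_eq_true', decide_eq_false_iff_not] at h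
  rcases h with ((((((((((h | h) | h) | h) | h) | h) | h) | h) | h) | h) | h) | h
  · refine key ![0, 1, 2, 3, 4] (by decide) fun i => ?_
    obtain ⟨⟨⟨⟨h1, h2⟩, h3⟩, h4⟩, h5⟩ := h
    fin_cases i
    · exact h1
    · exact h2
    · exact h3
    · exact h4
    · exact fun h' => h5 h'.symm
  · refine key ![0, 1, 2, 4, 3] (by decide) fun i => ?_
    obtain ⟨⟨⟨⟨h1, h2⟩, h3⟩, h4⟩, h5⟩ := h
    fin_cases i
    · exact h1
    · exact h2
    · exact h3
    · exact fun h' => h4 h'.symm
    · exact fun h' => h5 h'.symm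
  · refine key ![0, 1, 3, 2, 4] (by decide) fun i => ?_
    obtain ⟨⟨⟨⟨h1, h2⟩, h3⟩, h4⟩, h5⟩ := h
    fin_cases i
    · exact h1
    · exact h2
    · exact fun h' => h3 h'.symm
    · exact h4
    · exact fun h' => h5 h'.symm
  · refine key ![0, 1, 3, 4, 2] (by decide) fun i => ?_
    obtain ⟨⟨⟨⟨h1, h2⟩, h3⟩, h4⟩, h5⟩ := h
    fin_cases i
    · exact h1
    · exact h2
    · exact h3
    · exact fun h' => h4 h'.symm
    · exact fun h' => h5 h'.symm
  · refine key ![0, 1, 4, 2, 3] (by decide) fun i => ?_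
    obtain ⟨⟨⟨⟨h1, h2⟩, h3⟩, h4⟩, h5⟩ := h
    fin_cases i
    · exact h1
    · exact h2
    · exact fun h' => h3 h'.symm
    · exact h4
    · exact fun h' => h5 h'.symm
  · refine key ![0, 1, 4, 3, 2] (by decide) fun i => ?_
    obtain ⟨⟨⟨⟨h1, h2⟩, h3⟩, h4⟩, h5⟩ := h
    fin_cases i
    · exact h1
    · exact h2
    · exact fun h' => h3 h'.symm
    · exact fun h' => h4 h'.symm
    · exact fun h' => h5 h'.symm
  · refine key ![0, 2, 1, 3, 4] (by decide) fun i => ?_
    obtain ⟨⟨⟨⟨h1, h2⟩, h3⟩, h4⟩, h5⟩ := h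
    fin_cases i
    · exact h1
    · exact fun h' => h2 h'.symm
    · exact h3
    · exact h4
    · exact fun h' => h5 h'.symm
  · refine key ![0, 2, 1, 4, 3] (by decide) fun i => ?_
    obtain ⟨⟨⟨⟨h1, h2⟩, h3⟩, h4⟩, h5⟩ := h
    fin_cases i
    · exact h1
    · exact fun h' => h2 h'.symm
    · exact h3
    · exact fun h' => h4 h'.symm
    · exact fun h' => h5 h'.symm
  · refine key ![0, 2, 3, 1, 4] (by decide) fun i => ?_
    obtain ⟨⟨⟨⟨h1, h2⟩, h3⟩, h4⟩, h5⟩ := h
    fin_cases i
    · exact h1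
    · exact h2
    · exact fun h' => h3 h'.symm
    · exact h4
    · exact fun h' => h5 h'.symm
  · refine key ![0, 2, 4, 1, 3] (by decide) fun i => ?_
    obtain ⟨⟨⟨⟨h1, h2⟩, h3⟩, h4⟩, h5⟩ := h
    fin_cases i
    · exact h1
    · exact h2
    · exact fun h' => h3 h'.symm
    · exact h4
    · exact fun h' => h5 h'.symm
  · refine key ![0, 3, 1, 2, 4] (by decide) fun i => ?_
    obtain ⟨⟨⟨⟨h1, h2⟩, h3⟩, h4⟩, h5⟩ := h
    fin_cases i
    · exact h1
    · exact fun h' => h2 h'.symm
    · exact h3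
    · exact h4
    · exact fun h' => h5 h'.symm
  · refine key ![0, 3, 2, 1, 4] (by decide) fun i => ?_
    obtain ⟨⟨⟨⟨h1, h2⟩, h3⟩, h4⟩, h5⟩ := h
    fin_cases i
    · exact h1
    · exact fun h' => h2 h'.symm
    · exact fun h' => h3 h'.symm
    · exact h4
    · exact fun h' => h5 h'.symm

end Cfsg.Agent.H677.Pent
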