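import Cfsg.Agent.H306.Penta.Glue
import Cfsg.Agent.H352.Penta
import Cfsg.Agent.H173.Penta.B
import Cfsg.Agent.H173.Penta.C
import Cfsg.Agent.H415.Palfy.T1
import Cfsg.Agent.H55.Palfy.Main
import Cfsg.Agent.H161.PalFb
import Cfsg.Agent.H670.Palfy.SL

/-!
# No solvable group has a degree graph with five vertices and the pentagon as complement (helper677)
-/

set_option autoImplicit false

namespace Cfsg.Agent.H677.Pent

open Cfsg Cfsg.Agent.H670.Palfy

universe u

/-- **The pentagon is not the degree graph of a solvable group.** -/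
theorem noPenta : NoPenta.{u} :=
  H306.Penta.noPenta_of (H352.Penta.penta1 factSL) (H352.Penta.penta2a factSL)
    (H173.Penta.penta2b factSL) (H173.Penta.penta2c factSL) H415.Palfy.factT1 H415.Palfy.factT2pre
    H55.T2a.factT2a H161.PalFb.factT2b

theorem na_of {G : Type u} [Group G] {p q : ℕ} (hp : p.Prime) (hq : q.Prime) (hpq : p ≠ q)
    (h : ¬ (degreeGraph G).Adj p q) : NA p q G := fun e he h1 h2 =>
  h ⟨hpq, hp, hq, e, he, ((Nat.coprime_primes hp hq).2 hpq).mul_dvd_of_dvd_of_dvd h1 h2⟩

/-- No solvable group with exactly five vertices has a pentagon in the complement of the graph. -/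
theorem no_pentagon {G : Type u} [Group G] [Finite G] (hG : Group.IsSolvable G)
    (h5 : Set.ncard (degreePrimes G) = 5) (v : Fin 5 → ℕ) (hv : Function.Injective v)
    (hm : ∀ i, v i ∈ degreePrimes G) (hna : ∀ i, ¬ (degreeGraph G).Adj (v i) (v (i + 1))) : False := by
  classical
  have hfin : (degreePrimes G).Finite := Set.finite_of_ncard_ne_zero (by omega)
  have hr : Set.range v = degreePrimes G := by
    apply Set.eq_of_subset_of_ncard_le
    · rintro _ ⟨i, rfl⟩
      exact hm i
    · rw [h5, ← Set.image_univ, Set.ncard_image_of_injective _ hv, Set.ncard_univ, Nat.card_eq_fintype_card,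
        Fintype.card_fin]
    · exact hfin
  have hp : ∀ i, (v i).Prime := fun i => (hm i).1
  have hR : ∀ i, Rho (v i) G := fun i => (hm i).2
  have hne : ∀ i j : Fin 5, i ≠ j → v i ≠ v j := fun i j h => hv.ne h
  refine noPenta G hG (v 0) (v 1) (v 2) (v 3) (v 4) ⟨hp 0, hp 1, hp 2, hp 3, hp 4, hR 0, hR 1, hR 2,
    hR 3, hR 4, na_of (hp 0) (hp 1) (hne _ _ (by decide)) (hna 0),
    na_of (hp 1) (hp 2) (hne _ _ (by decide)) (hna 1), na_of (hp 2) (hp 3) (hne _ _ (by decide)) (hna 2),
    na_of (hp 3) (hp 4) (hne _ _ (by decide)) (hna 3), na_of (hp 4) (hp 0) (hne _ _ (by decide)) (hna 4),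
    ?_⟩ fun t ht htR => ?_
  · simp only [List.nodup_cons, List.mem_cons, List.not_mem_nil, or_false, not_or, List.nodup_nil,
      not_false_eq_true, and_true]
    refine ⟨⟨hne _ _ (by decide), hne _ _ (by decide), hne _ _ (by decide), hne _ _ (by decide)⟩,
      ⟨hne _ _ (by decide), hne _ _ (by decide), hne _ _ (by decide)⟩,
      ⟨hne _ _ (by decide), hne _ _ (by decide)⟩, hne _ _ (by decide)⟩
  · have h1 : t ∈ degreePrimes G := ⟨ht, htR⟩
    rw [← hr] at h1
    obtain ⟨i, rfl⟩ := h1
    fin_cases i <;> simp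
    
end Cfsg.Agent.H677.Pent
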